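import Cfsg.Agent.A9S.PE5

/-! Classes of elements of order 3 in `Alt(9)` (`cls3`) and the reduction of `n3` to three representatives (`n3_of`). -/

set_option autoImplicit false
set_option linter.unusedSectionVars false

namespace Cfsg.Agent.A9S

open Equiv Subgroup

variable {G : Type*} [Group G]

/-- the 3-cycle on `6, 7, 8` -/
def px : A9 := ⟨swap 6 8 * swap 6 7, Perm.mem_alternatingGroup.2 (by decide +kernel)⟩

theorem cls3 (x : A9) (hx : orderOf x = 3) : IsConj x pz ∨ IsConj x (pz * py) ∨ IsConj x (pz * py * px) := by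
  have h1 : orderOf x.1 = 3 := by rw [Subgroup.orderOf_coe, hx]
  obtain ⟨n, hn⟩ := Perm.cycleType_prime_order (h1 ▸ Nat.prime_three)
  have h2 := Perm.sum_cycleType x.1
  have h4 : x.1.support.card ≤ 9 := (Finset.card_le_univ _).trans (by simp)
  rw [hn, Multiset.sum_replicate, h1, smul_eq_mul] at h2
  have h5 : n = 0 ∨ n = 1 ∨ n = 2 := by omega
  rcases h5 with rfl | rfl | rfl
  · exact .inl (alternatingGroup.isConj_of (pe5_conj Nat.prime_three h1
      (pe5_ord Nat.prime_three (by decide +kernel) (by decide +kernel)) (h2.symm.trans (by decide +kernel)))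
        (by rw [← h2]; simp))
  · exact .inr (.inl (alternatingGroup.isConj_of (pe5_conj Nat.prime_three h1
      (pe5_ord Nat.prime_three (by decide +kernel) (by decide +kernel)) (h2.symm.trans (by decide +kernel)))
        (by rw [← h2]; simp)))
  · refine .inr (.inr ?_)
    obtain ⟨π, e⟩ := isConj_iff.1 (pe5_conj Nat.prime_three h1 (pe5_ord (x := pz * py * px) Nat.prime_three
      (by decide +kernel) (by decide +kernel)) (h2.symm.trans (by decide +kernel)))
    rcases Int.units_eq_one_or (Perm.sign π) with h | h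
    · exact isConj_iff.2 ⟨⟨π, Perm.mem_alternatingGroup.2 h⟩, Subtype.ext e⟩
    · refine isConj_iff.2 ⟨⟨swap 0 3 * swap 1 4 * swap 2 5 * π, Perm.mem_alternatingGroup.2 ?_⟩, Subtype.ext ?_⟩
      · rw [map_mul, h]
        decide +kernel
      · show swap 0 3 * swap 1 4 * swap 2 5 * π * x.1 * (swap 0 3 * swap 1 4 * swap 2 5 * π)⁻¹ = (pz * py * px).1
        calc _ = swap 0 3 * swap 1 4 * swap 2 5 * (π * x.1 * π⁻¹) * (swap 0 3 * swap 1 4 * swap 2 5)⁻¹ := by group
          _ = _ := by rw [e]; decide +kernel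

theorem n3_of (φ : A9 →* G) (h : ∀ x, x = pz ∨ x = pz * py ∨ x = pz * py * px →
    ∀ g, g * φ x * g⁻¹ ∈ zpowers (φ x) → g ∈ φ.range) :
    ∀ x : A9, orderOf x = 3 → ∀ g : G, g * φ x * g⁻¹ ∈ zpowers (φ x) → g ∈ φ.range := fun x hx g ⟨k, hk⟩ => by
  have key : ∀ y, y = pz ∨ y = pz * py ∨ y = pz * py * px → IsConj x y → g ∈ φ.range := fun y hy hc => by
    obtain ⟨c, rfl⟩ := isConj_iff.1 hc
    have := h _ hy (φ c * g * (φ c)⁻¹) ⟨k, by
      simp only [map_mul, map_inv] at hk ⊢
      rw [conj_zpow, hk]; group⟩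
    have := mul_mem (mul_mem (inv_mem (⟨c, rfl⟩ : φ c ∈ φ.range)) this) ⟨c, rfl⟩
    simpa [mul_assoc] using this
  rcases cls3 x hx with c | c | c
  · exact key _ (.inl rfl) c
  · exact key _ (.inr (.inl rfl)) c
  · exact key _ (.inr (.inr rfl)) c

end Cfsg.Agent.A9S
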