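import Cfsg.Agent.A8R.PN

/-! Frame for "a 3-locally full `Alt(9)` is the whole group" (port of `A8R.F2`). -/

set_option autoImplicit false

namespace Cfsg.Agent.A9S

open Equiv Subgroup

/-- The model group. -/
abbrev A9 := alternatingGroup (Fin 9)

def pz : A9 := ⟨swap 0 2 * swap 0 1, Perm.mem_alternatingGroup.2 (by decide +kernel)⟩
def py : A9 := ⟨swap 3 5 * swap 3 4, Perm.mem_alternatingGroup.2 (by decide +kernel)⟩
def pa : A9 := ⟨swap 3 4 * swap 6 7, Perm.mem_alternatingGroup.2 (by decide +kernel)⟩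
def pb : A9 := ⟨swap 0 1 * swap 6 7, Perm.mem_alternatingGroup.2 (by decide +kernel)⟩
def pv : A9 := ⟨swap 3 4 * swap 5 6, Perm.mem_alternatingGroup.2 (by decide +kernel)⟩
def pv2 : A9 := ⟨swap 4 5 * swap 3 6, Perm.mem_alternatingGroup.2 (by decide +kernel)⟩
def pw : A9 := ⟨swap 0 1 * swap 2 7, Perm.mem_alternatingGroup.2 (by decide +kernel)⟩
def pw2 : A9 := ⟨swap 1 2 * swap 0 7, Perm.mem_alternatingGroup.2 (by decide +kernel)⟩
def pt : A9 := ⟨swap 0 3 * swap 1 4 * swap 2 5 * swap 6 7, Perm.mem_alternatingGroup.2 (by decide +kernel)⟩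
/-- The 2-central involution of the 2⁴ generated by `pv pv2 pw pw2`. -/
def pe : A9 := pv * pw

theorem pv2_eq : py * pv * py⁻¹ = pv2 := by decide +kernel
theorem pw2_eq : pz * pw * pz⁻¹ = pw2 := by decide +kernel
theorem pt_pz : pt * pz * pt⁻¹ = py := by decide +kernel

variable {G : Type*} [Group G]

/-- The frame. -/
structure F9 (φ : A9 →* G) : Prop where
  inj : Function.Injective φ
  n3 : ∀ x : A9, orderOf x = 3 → ∀ g : G, g * φ x * g⁻¹ ∈ zpowers (φ x) → g ∈ φ.range
  h9 : ∀ i : G, orderOf i = 2 → ¬ 9 ∣ Nat.card (centralizer ({i} : Set G))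
  nc : ¬ IsConj (φ pt) (φ pv)

/-- Has two fixed points (for an involution: cycle type `2²`). -/
def fp (i : A9) : Prop := ∃ x y : Fin 9, x ≠ y ∧ i.1 x = x ∧ i.1 y = y

instance a9s_decFp (i : A9) : Decidable (fp i) := by unfold fp; infer_instance

/-- The 2⁴. -/
def E0 : Subgroup A9 := closure {pv, pv2, pw, pw2}

end Cfsg.Agent.A9S
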