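import Cfsg.Agent.A9S.A

/-! The construction of the frame `F9`. -/

set_option autoImplicit false
set_option linter.unusedSectionVars false

namespace Cfsg.Agent.A9S

open Equiv Subgroup

variable {G : Type*} [Group G] [Finite G]

theorem mx_pn_ord1 {x : A9} {p : ℕ} (hp : p.Prime) (h1 : x ^ p = 1) (h2 : x ≠ 1) : orderOf x = p := by
  have := Fact.mk hp
  exact orderOf_eq_prime h1 h2

theorem mx_pn_ct (i : A9) (hi : orderOf i = 2) :
    (i.1.cycleType = Multiset.replicate 2 2 ∧ i.1.support.card = 4) ∨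
      (i.1.cycleType = Multiset.replicate 4 2 ∧ i.1.support.card = 8) := by
  have h1 : orderOf i.1 = 2 := by rw [Subgroup.orderOf_coe, hi]
  obtain ⟨n, hn⟩ := Perm.cycleType_prime_order (h1 ▸ Nat.prime_two)
  have h2 := Perm.sum_cycleType i.1
  have h3 := Perm.sign_of_cycleType i.1
  have h4 : i.1.support.card ≤ 9 := (Finset.card_le_univ _).trans (by simp)
  rw [hn, Multiset.sum_replicate, h1, smul_eq_mul] at h2 h3
  rw [Perm.mem_alternatingGroup.1 i.2, Multiset.card_replicate] at h3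
  have h5 : n = 1 ∨ n = 3 := by
    have : n ≤ 3 := by omega
    interval_cases n <;> first | decide | exact absurd h3 (by decide)
  rw [h1] at hn
  rcases h5 with rfl | rfl
  · exact Or.inl ⟨hn, h2.symm⟩
  · exact Or.inr ⟨hn, h2.symm⟩

theorem mx_mk_dvd {φ : A9 →* G} (inj : Function.Injective φ) (Q : Subgroup G) (hQ : Q ≤ φ.range) (x : A9)
    (hc : Q ≤ centralizer ({φ x} : Set G)) :
    Nat.card Q ∣ Nat.card (centralizer ({x.1} : Set (Perm (Fin 9)))) := by
  have e1 : Nat.card Q = Nat.card ((Q.comap φ).map (alternatingGroup (Fin 9)).subtype) := by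
    rw [card_map_of_injective (subtype_injective _), ← card_map_of_injective (K := Q.comap φ) inj,
      map_comap_eq_self hQ]
  rw [e1]
  refine card_dvd_of_le ?_
  rintro _ ⟨w, hw, rfl⟩
  have := mem_centralizer_singleton_iff.1 (hc hw)
  rw [← map_mul, ← map_mul] at this
  exact mem_centralizer_singleton_iff.2 (congrArg Subtype.val (inj this))

theorem mx_mk_cle {φ : A9 →* G}
    (n3 : ∀ x : A9, orderOf x = 3 → ∀ g : G, g * φ x * g⁻¹ ∈ zpowers (φ x) → g ∈ φ.range) (x : A9)
    (hx : orderOf x = 3) : centralizer ({φ x} : Set G) ≤ φ.range := fun g hg =>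
  n3 x hx g (by rw [mem_centralizer_singleton_iff.1 hg, mul_inv_cancel_right]; exact mem_zpowers _)

theorem mx_mk_syl {φ : A9 →* G} (inj : Function.Injective φ)
    (n3 : ∀ x : A9, orderOf x = 3 → ∀ g : G, g * φ x * g⁻¹ ∈ zpowers (φ x) → g ∈ φ.range)
    (Q : Subgroup G) (hQ : IsPGroup 3 Q) (x0 : A9) (hx0 : orderOf x0 = 3) (hm : φ x0 ∈ Q) : Q ≤ φ.range := by
  have := Fact.mk Nat.prime_three
  have := hQ.isNilpotent
  rw [← subgroupOf_eq_top]
  refine normalizerCondition_iff_only_full_group_self_normalizing.1 Group.normalizerCondition_of_isNilpotent _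
    (le_antisymm ?_ le_normalizer)
  set D := φ.range.subgroupOf Q with hD
  let _ : MulAction (normalizer (D : Set Q)) D := MulAction.compHom D (normalizerMonoidHom D)
  have hN : IsPGroup 3 (normalizer (D : Set Q)) := hQ.to_subgroup _
  have d3 : 3 ∣ Nat.card D := by
    have o : orderOf (⟨⟨φ x0, hm⟩, (⟨x0, rfl⟩ : φ x0 ∈ φ.range)⟩ : D) = 3 := by
      rw [← Subgroup.orderOf_coe, ← Subgroup.orderOf_coe]
      exact (orderOf_injective φ inj x0).trans hx0
    exact o ▸ orderOf_dvd_natCard _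
  obtain ⟨b, hb, b1⟩ := hN.exists_fixed_point_of_prime_dvd_card_of_fixed_point D d3 (a := 1)
    (fun g => map_one (normalizerMonoidHom D g))
  obtain ⟨k, hk⟩ := (IsPGroup.iff_orderOf.1 (hQ.to_subgroup D)) b
  have h3 : 3 ∣ orderOf b := by
    rcases k with _ | k
    · exact absurd (orderOf_eq_one_iff.1 hk).symm b1
    · rw [hk]; exact dvd_pow_self 3 (Nat.succ_ne_zero k)
  have oc := orderOf_pow_orderOf_div (orderOf_pos b).ne' h3
  obtain ⟨x, hx⟩ := (b ^ (orderOf b / 3)).2
  have ox : orderOf x = 3 := by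
    rw [← orderOf_injective φ inj x, hx]
    exact ((Subgroup.orderOf_coe _).trans (Subgroup.orderOf_coe _)).trans oc
  intro g hg
  refine mx_mk_cle n3 x ox (mem_centralizer_singleton_iff.2 ?_)
  have e : normalizerMonoidHom D ⟨g, hg⟩ b = b := hb ⟨g, hg⟩
  have e2 : normalizerMonoidHom D ⟨g, hg⟩ (b ^ (orderOf b / 3)) = b ^ (orderOf b / 3) := by rw [map_pow, e]
  have e3 : (g : G) * φ x * (g : G)⁻¹ = φ x := by
    rw [hx]
    exact congrArg (fun t : D => ((t : Q) : G)) e2
  calc (g : G) * φ x = (g : G) * φ x * (g : G)⁻¹ * g := by group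
    _ = φ x * g := by rw [e3]

theorem mx_mk_h9 {φ : A9 →* G} (inj : Function.Injective φ)
    (n3 : ∀ x : A9, orderOf x = 3 → ∀ g : G, g * φ x * g⁻¹ ∈ zpowers (φ x) → g ∈ φ.range)
    (i : G) (hi : orderOf i = 2) : ¬ 9 ∣ Nat.card (centralizer ({i} : Set G)) := by
  intro hd
  have : Fact (Nat.Prime 3) := ⟨Nat.prime_three⟩
  have oz : orderOf pz = 3 := mx_pn_ord1 Nat.prime_three (by decide +kernel) (by decide +kernel)
  obtain ⟨P, hP⟩ := (IsPGroup.of_card (p := 3) (n := 1) (G := zpowers (φ pz))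
    (by rw [Nat.card_zpowers, orderOf_injective φ inj, oz, pow_one])).exists_le_sylow
  have hPA := mx_mk_syl inj n3 P P.2 pz oz (hP (mem_zpowers _))
  obtain ⟨K0, hK0⟩ := Sylow.exists_subgroup_card_pow_prime (G := centralizer ({i} : Set G)) 3 (n := 2) hd
  have hR0 : Nat.card (K0.map (centralizer ({i} : Set G)).subtype) = 3 ^ 2 := by
    rw [card_map_of_injective (subtype_injective _), hK0]
  obtain ⟨P', hP'⟩ := (IsPGroup.of_card hR0).exists_le_sylow
  obtain ⟨g, rfl⟩ := MulAction.exists_smul_eq G P' P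
  set R := (K0.map (centralizer ({i} : Set G)).subtype).map (MulAut.conj g).toMonoidHom with hRd
  have hR : Nat.card R = 3 ^ 2 := by rw [card_map_of_injective (MulAut.conj g).injective, hR0]
  have hRA : R ≤ φ.range := by
    refine le_trans ?_ hPA
    rintro _ ⟨w, hw, rfl⟩
    rw [Sylow.coe_subgroup_smul]
    exact smul_mem_pointwise_smul w (MulAut.conj g) _ (hP' hw)
  have hRC : R ≤ centralizer ({g * i * g⁻¹} : Set G) := by
    rintro _ ⟨w, hw, rfl⟩
    have h2 := mem_centralizer_singleton_iff.1 (map_subtype_le _ hw)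
    refine mem_centralizer_singleton_iff.2 ?_
    show g * w * g⁻¹ * (g * i * g⁻¹) = g * i * g⁻¹ * (g * w * g⁻¹)
    calc _ = g * (w * i) * g⁻¹ := by group
      _ = _ := by rw [h2]; group
  obtain ⟨u, hu⟩ := exists_prime_orderOf_dvd_card' (G := R) 3 (by rw [hR]; norm_num)
  obtain ⟨x, hx⟩ := hRA u.2
  have ox : orderOf x = 3 := by rw [← orderOf_injective φ inj x, hx, Subgroup.orderOf_coe, hu]
  obtain ⟨j, hj⟩ := mx_mk_cle n3 x ox (mem_centralizer_singleton_iff.2
    (hx ▸ (mem_centralizer_singleton_iff.1 (hRC u.2)).symm))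
  have oj : orderOf j = 2 := by
    rw [← orderOf_injective φ inj j, hj, ← hi]; exact (MulAut.conj g).orderOf_eq i
  have := mx_mk_dvd inj R hRA j (hj ▸ hRC)
  rw [hR, Perm.nat_card_centralizer] at this
  rcases mx_pn_ct j oj with ⟨e, -⟩ | ⟨e, -⟩ <;> rw [e] at this <;> revert this <;> decide

theorem mx_mk_nc {z y t v : G} {d : ℕ} (hz : orderOf z = 3) (hy : orderOf y = 3) (hv : orderOf v = 2)
    (c1 : Commute z v)
    (c2 : Commute y t) (h9 : ∀ i : G, orderOf i = 2 → ¬ 9 ∣ Nat.card (centralizer ({i} : Set G)))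
    (h4 : d ∣ Nat.card (centralizer ({z} : Set G))) (h4' : ¬ d ∣ Nat.card (centralizer ({y} : Set G))) :
    ¬ IsConj t v := by
  intro hc
  obtain ⟨g, rfl⟩ := isConj_iff.1 hc
  have m1 : z ∈ centralizer ({g * t * g⁻¹} : Set G) := mem_centralizer_singleton_iff.2 c1.eq
  have m2 : g * y * g⁻¹ ∈ centralizer ({g * t * g⁻¹} : Set G) := mem_centralizer_singleton_iff.2 (by
    calc g * y * g⁻¹ * (g * t * g⁻¹) = g * (y * t) * g⁻¹ := by group
      _ = _ := by rw [c2.eq]; group)
  obtain ⟨c, e⟩ := A8R.pn_syl (z := (⟨_, m1⟩ : centralizer _)) (y := ⟨_, m2⟩) (by rw [← hz, orderOf_mk])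
    (by rw [orderOf_mk, ← hy]; exact (MulAut.conj g).orderOf_eq y) (h9 _ hv)
  have e' := congrArg (Subgroup.map (centralizer ({g * t * g⁻¹} : Set G)).subtype) e
  rw [MonoidHom.map_zpowers, MonoidHom.map_zpowers, zpowers_eq_closure, zpowers_eq_closure] at e'
  have e2 := congrArg (fun K : Subgroup G => centralizer (K : Set G)) e'
  simp only [centralizer_closure] at e2
  refine h4' ?_
  rw [← A8R.pn_card g y, ← A8R.pn_card (c : G) z] at *
  exact e2 ▸ h4

/-- A 5-cycle commuting with `pz`. -/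
def mxp5 : A9 := ⟨swap 3 7 * swap 3 6 * swap 3 5 * swap 3 4, Perm.mem_alternatingGroup.2 (by decide +kernel)⟩

theorem F9.mk9 {φ : A9 →* G} (inj : Function.Injective φ)
    (n3 : ∀ x : A9, orderOf x = 3 → ∀ g : G, g * φ x * g⁻¹ ∈ zpowers (φ x) → g ∈ φ.range) : F9 φ := by
  have oz : orderOf pz = 3 := mx_pn_ord1 Nat.prime_three (by decide +kernel) (by decide +kernel)
  have oy : orderOf (pz * py) = 3 := mx_pn_ord1 Nat.prime_three (by decide +kernel) (by decide +kernel)
  have ov : orderOf pv = 2 := mx_pn_ord1 Nat.prime_two (by decide +kernel) (by decide +kernel)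
  have o5 : orderOf mxp5 = 5 := mx_pn_ord1 Nat.prime_five (by decide +kernel) (by decide +kernel)
  refine ⟨inj, n3, mx_mk_h9 inj n3, mx_mk_nc (z := φ pz) (y := φ (pz * py)) (d := 5)
    ((orderOf_injective φ inj _).trans oz) ((orderOf_injective φ inj _).trans oy)
    ((orderOf_injective φ inj _).trans ov) (Commute.map (show pz * pv = pv * pz by decide +kernel) φ)
    (Commute.map (show pz * py * pt = pt * (pz * py) by decide +kernel) φ) (mx_mk_h9 inj n3) ?_ fun h5 => ?_⟩
  · have m : φ mxp5 ∈ centralizer ({φ pz} : Set G) := mem_centralizer_singleton_iff.2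
      (Commute.map (show mxp5 * pz = pz * mxp5 by decide +kernel) φ).eq
    have := orderOf_dvd_natCard (⟨_, m⟩ : centralizer ({φ pz} : Set G))
    rwa [orderOf_mk, orderOf_injective φ inj, o5] at this
  · have := h5.trans (mx_mk_dvd inj _ (mx_mk_cle n3 _ oy) (pz * py) le_rfl)
    have h1 : orderOf (pz * py).1 = 3 := by rw [Subgroup.orderOf_coe, oy]
    obtain ⟨n, hn⟩ := Perm.cycleType_prime_order (h1 ▸ Nat.prime_three)
    have h2 := Perm.sum_cycleType (pz * py).1
    rw [hn, Multiset.sum_replicate, h1, smul_eq_mul,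
      show (pz * py).1.support.card = 6 by decide +kernel] at h2
    obtain rfl : n = 1 := by omega
    rw [Perm.nat_card_centralizer, hn, h1] at this
    revert this
    decide

end Cfsg.Agent.A9S
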