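import Cfsg.Agent.A9S.A

/-! In the second frame the Sylow 2-subgroups of `G` have order at most 64. -/

set_option autoImplicit false
set_option linter.unusedSectionVars false

namespace Cfsg.Agent.A9S

open Equiv Subgroup

/-- the elements of the Sylow 2-subgroup of the model -/
def el2 (a b c d x y : Bool) : A9 :=
  cond a pv 1 * cond b pv2 1 * cond c pw 1 * cond d pw2 1 * cond x (pa * pb) 1 * cond y pt 1

/-- the Sylow 2-subgroup of the model -/
def T64 : Subgroup A9 := closure {pv, pv2, pw, pw2, pa * pb, pt}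

/-- fast model of a permutation of 9 points -/
structure T9 where
  a0 : Fin 9
  a1 : Fin 9
  a2 : Fin 9
  a3 : Fin 9
  a4 : Fin 9
  a5 : Fin 9
  a6 : Fin 9
  a7 : Fin 9
  a8 : Fin 9
  deriving DecidableEq

/-- evaluation -/
def T9.ap (t : T9) (x : Fin 9) : Fin 9 :=
  cond (x.1.ble 3) (cond (x.1.ble 1) (cond (x.1.ble 0) t.a0 t.a1) (cond (x.1.ble 2) t.a2 t.a3))
    (cond (x.1.ble 5) (cond (x.1.ble 4) t.a4 t.a5) (cond (x.1.ble 6) t.a6 (cond (x.1.ble 7) t.a7 t.a8)))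
/-- composition -/
def T9.mul (s t : T9) : T9 := ⟨s.ap t.a0, s.ap t.a1, s.ap t.a2, s.ap t.a3, s.ap t.a4, s.ap t.a5, s.ap t.a6, s.ap t.a7, s.ap t.a8⟩
/-- has a fixed point -/
def T9.fx (t : T9) : Bool := decide (∃ x y : Fin 9, x ≠ y ∧ t.ap x = x ∧ t.ap y = y)
/-- the table of an element -/
def tup (p : A9) : T9 := ⟨p.1 0, p.1 1, p.1 2, p.1 3, p.1 4, p.1 5, p.1 6, p.1 7, p.1 8⟩

theorem tup_ap (p : A9) (x : Fin 9) : (tup p).ap x = p.1 x := by fin_cases x <;> rfl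
theorem tup_mul (p q : A9) : tup (p * q) = (tup p).mul (tup q) := by
  simp only [T9.mul, tup_ap]; rfl
theorem tup_inj {p q : A9} : p = q ↔ tup p = tup q :=
  ⟨congrArg _, fun e => Subtype.ext (Equiv.ext fun x => by rw [← tup_ap, ← tup_ap, e])⟩
theorem tup_fx (p : A9) : fp p ↔ (tup p).fx = true := by
  simp only [fp, T9.fx, tup_ap, decide_eq_true_eq]

def t1 : T9 := ⟨0, 1, 2, 3, 4, 5, 6, 7, 8⟩
def tv : T9 := ⟨0, 1, 2, 4, 3, 6, 5, 7, 8⟩
def tv2 : T9 := ⟨0, 1, 2, 6, 5, 4, 3, 7, 8⟩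
def tw : T9 := ⟨1, 0, 7, 3, 4, 5, 6, 2, 8⟩
def tw2 : T9 := ⟨7, 2, 1, 3, 4, 5, 6, 0, 8⟩
def tab : T9 := ⟨1, 0, 2, 4, 3, 5, 6, 7, 8⟩
def tt8 : T9 := ⟨3, 4, 5, 0, 1, 2, 7, 6, 8⟩
theorem tup_gen : tup 1 = t1 ∧ tup pv = tv ∧ tup pv2 = tv2 ∧ tup pw = tw ∧ tup pw2 = tw2 ∧ tup (pa * pb) = tab ∧ tup pt = tt8 := by
  decide +kernel

/-- table of `el2` -/
def tel (a b c d x y : Bool) : T9 :=
  (((((cond a tv t1).mul (cond b tv2 t1)).mul (cond c tw t1)).mul (cond d tw2 t1)).mul (cond x tab t1)).mul (cond y tt8 t1)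

theorem tup_el2 (a b c d x y : Bool) : tup (el2 a b c d x y) = tel a b c d x y := by
  obtain ⟨h0, h1, h2, h3, h4, h5, h6⟩ := tup_gen
  have k : ∀ (u : Bool) (s : A9), tup (cond u s 1) = cond u (tup s) t1 := fun u s => by cases u <;> simp [h0]
  unfold el2 tel
  rw [tup_mul, tup_mul, tup_mul, tup_mul, tup_mul, k, k, k, k, k, k, h1, h2, h3, h4, h5, h6]

set_option maxHeartbeats 4000000 in
theorem tel_step : ∀ s ∈ [tv, tv2, tw, tw2, tab, tt8],
    ∀ a b c d x y : Bool, ∃ y' x' d' c' b' a' : Bool, s.mul (tel a b c d x y) = tel a' b' c' d' x' y' := by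
  decide +kernel

theorem el2_step : ∀ s ∈ [pv, pv2, pw, pw2, pa * pb, pt], s⁻¹ = s ∧
    ∀ a b c d x y : Bool, ∃ y' x' d' c' b' a' : Bool, s * el2 a b c d x y = el2 a' b' c' d' x' y' := fun s hs => by
  obtain ⟨h0, h1, h2, h3, h4, h5, h6⟩ := tup_gen
  have : s * s = 1 ∧ tup s ∈ [tv, tv2, tw, tw2, tab, tt8] := by
    simp only [List.mem_cons, List.not_mem_nil, or_false] at hs
    rcases hs with rfl | rfl | rfl | rfl | rfl | rfl <;> refine ⟨by decide +kernel, ?_⟩ <;> simp [h1, h2, h3, h4, h5, h6]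
  refine ⟨inv_eq_of_mul_eq_one_right this.1, fun a b c d x y => ?_⟩
  simp only [tup_inj, tup_mul s, tup_el2]
  exact tel_step _ this.2 a b c d x y

theorem T64_el {p : A9} (hp : p ∈ T64) : ∃ a b c d x y : Bool, p = el2 a b c d x y := by
  induction hp using closure_induction_left with
  | one => exact ⟨false, false, false, false, false, false, by decide +kernel⟩
  | mul_left s hs p _ ih =>
    obtain ⟨a, b, c, d, x, y, rfl⟩ := ih
    obtain ⟨y', x', d', c', b', a', e⟩ := (el2_step s (by simpa using hs)).2 a b c d x y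
    exact ⟨_, _, _, _, _, _, e⟩
  | inv_mul_cancel s hs p _ ih =>
    obtain ⟨a, b, c, d, x, y, rfl⟩ := ih
    obtain ⟨y', x', d', c', b', a', e⟩ := (el2_step s (by simpa using hs)).2 a b c d x y
    exact ⟨_, _, _, _, _, _, by rw [(el2_step s (by simpa using hs)).1]; exact e⟩

theorem el2_mem (a b c d x y : Bool) : el2 a b c d x y ∈ T64 := by
  have k : ∀ (u : Bool) (s : A9), s ∈ T64 → cond u s 1 ∈ T64 := fun u s hs => by
    cases u
    · exact one_mem _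
    · exact hs
  refine mul_mem (mul_mem (mul_mem (mul_mem (mul_mem (k _ _ ?_) (k _ _ ?_)) (k _ _ ?_)) (k _ _ ?_)) (k _ _ ?_)) (k _ _ ?_) <;>
    exact subset_closure (by simp)

theorem tel_pow : ∀ a b c d x y : Bool, ((tel a b c d x y).mul (tel a b c d x y)).mul
    ((tel a b c d x y).mul (tel a b c d x y)) = t1 := by decide +kernel

theorem el2_pow (a b c d x y : Bool) : el2 a b c d x y ^ 2 ^ 2 = 1 := by
  rw [show 2 ^ 2 = 2 + 2 from rfl, pow_add, pow_two, tup_inj, tup_mul, tup_mul, tup_el2, tup_gen.1]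
  exact tel_pow a b c d x y

set_option maxHeartbeats 4000000 in
theorem tel_inj : ∀ a b c d x y a' b' c' d' x' y' : Bool, tel a b c d x y = tel a' b' c' d' x' y' →
    (a, b, c, d, x, y) = (a', b', c', d', x', y') := by decide +kernel

theorem el2_inj (a b c d x y a' b' c' d' x' y' : Bool) (e : el2 a b c d x y = el2 a' b' c' d' x' y') :
    (a, b, c, d, x, y) = (a', b', c', d', x', y') :=
  tel_inj _ _ _ _ _ _ _ _ _ _ _ _ (by rw [← tup_el2, e, tup_el2])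

theorem T64_pg : IsPGroup 2 T64 := fun ⟨p, hp⟩ => by
  obtain ⟨a, b, c, d, x, y, rfl⟩ := T64_el hp
  exact ⟨2, Subtype.ext (el2_pow a b c d x y)⟩

theorem T64_card : 64 ≤ Nat.card T64 := by
  have := Nat.card_le_card_of_injective (fun q : Bool × Bool × Bool × Bool × Bool × Bool =>
    (⟨el2 q.1 q.2.1 q.2.2.1 q.2.2.2.1 q.2.2.2.2.1 q.2.2.2.2.2, el2_mem _ _ _ _ _ _⟩ : T64))
    (fun q q' e => el2_inj _ _ _ _ _ _ _ _ _ _ _ _ (congrArg Subtype.val e))
  simpa using this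

/-- the involutions with fixed points in `T64` -/
def L10 : List T9 := [⟨0, 1, 2, 4, 3, 6, 5, 7, 8⟩, ⟨0, 1, 2, 6, 5, 4, 3, 7, 8⟩, ⟨0, 1, 2, 5, 6, 3, 4, 7, 8⟩, ⟨1, 0, 7, 3, 4, 5, 6, 2, 8⟩,
  ⟨7, 2, 1, 3, 4, 5, 6, 0, 8⟩, ⟨2, 7, 0, 3, 4, 5, 6, 1, 8⟩, ⟨1, 0, 2, 4, 3, 5, 6, 7, 8⟩, ⟨1, 0, 2, 3, 4, 6, 5, 7, 8⟩,
  ⟨0, 1, 7, 4, 3, 5, 6, 2, 8⟩, ⟨0, 1, 7, 3, 4, 6, 5, 2, 8⟩]

theorem tel_ten : ∀ a b c d x y : Bool, (tel a b c d x y).fx = true → (tel a b c d x y).mul (tel a b c d x y) = t1 →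
    tel a b c d x y ≠ t1 → tel a b c d x y ∈ L10 := by decide +kernel

theorem el2_ten (a b c d x y : Bool) (h1 : fp (el2 a b c d x y)) (h2 : el2 a b c d x y * el2 a b c d x y = 1)
    (h3 : el2 a b c d x y ≠ 1) : tup (el2 a b c d x y) ∈ L10 := by
  rw [tup_fx, tup_el2] at h1
  rw [tup_inj, tup_mul, tup_el2, tup_gen.1] at h2
  rw [Ne, tup_inj, tup_el2, tup_gen.1] at h3
  rw [tup_el2]
  exact tel_ten a b c d x y h1 h2 h3

set_option synthInstance.maxSize 4096 in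
set_option synthInstance.maxHeartbeats 400000 in
theorem tten_chk : ∀ i ∈ L10, ∀ k ∈ L10, i.mul k ∈ L10 → ∀ j ∈ L10, i.mul j = j.mul i → k.mul j = j.mul k →
    ¬ (i.mul j).fx = true → ¬ (k.mul j).fx = true → ¬ ((i.mul k).mul j).fx = true →
    (i ∈ [tv, tv2, tv.mul tv2] ∧ k ∈ [tv, tv2, tv.mul tv2]) ∨
      ((tt8.mul i).mul tt8 ∈ [tv, tv2, tv.mul tv2] ∧ (tt8.mul k).mul tt8 ∈ [tv, tv2, tv.mul tv2]) := by decide +kernel

theorem ten_chk (i : A9) (hi : tup i ∈ L10) (k : A9) (hk : tup k ∈ L10) (hik : tup (i * k) ∈ L10) (j : A9) (hj : tup j ∈ L10)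
    (c1 : i * j = j * i) (c2 : k * j = j * k) (n1 : ¬ fp (i * j)) (n2 : ¬ fp (k * j)) (n3 : ¬ fp (i * k * j)) :
    (i ∈ [pv, pv2, pv * pv2] ∧ k ∈ [pv, pv2, pv * pv2]) ∨
      (pt * i * pt⁻¹ ∈ [pv, pv2, pv * pv2] ∧ pt * k * pt⁻¹ ∈ [pv, pv2, pv * pv2]) := by
  obtain ⟨h0, h1, h2, h3, h4, h5, h6⟩ := tup_gen
  have m : ∀ q : A9, tup q ∈ [tv, tv2, tv.mul tv2] → q ∈ [pv, pv2, pv * pv2] := fun q hq => by
    rw [← h1, ← h2, ← tup_mul] at hq
    simpa only [List.mem_cons, List.not_mem_nil, or_false, ← tup_inj] using hq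
  rw [tup_inj, tup_mul, tup_mul] at c1 c2
  rw [tup_fx, tup_mul] at n1 n2 n3
  rw [tup_mul] at hik n3
  rw [show pt⁻¹ = pt from inv_eq_of_mul_eq_one_right (by decide +kernel)]
  rcases tten_chk _ hi _ hk hik _ hj c1 c2 n1 n2 n3 with ⟨a1, a2⟩ | ⟨a1, a2⟩
  · exact .inl ⟨m _ a1, m _ a2⟩
  · exact .inr ⟨m _ (by rwa [tup_mul, tup_mul, h6]), m _ (by rwa [tup_mul, tup_mul, h6])⟩

variable {G : Type*} [Group G] [Finite G] {φ : A9 →* G}

theorem F9.nT64 (h : F9 φ)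
    (nf : ∀ {i j : A9}, orderOf i = 2 → orderOf j = 2 → IsConj (φ i) (φ j) → (fp i ↔ fp j))
    (nV : ∀ g, g * φ pv * g⁻¹ ∈ (closure {pv, pv2}).map φ → g * φ pv2 * g⁻¹ ∈ (closure {pv, pv2}).map φ → g ∈ φ.range)
    {g : G} (hg : g ∈ normalizer (T64.map φ : Set G)) : g ∈ φ.range := by
  haveI : Fact (Nat.Prime 2) := Nat.fact_prime_two
  have tr : ∀ {i p : A9}, φ i = g * φ p * g⁻¹ → p * p = 1 → p ≠ 1 → i * i = 1 ∧ i ≠ 1 ∧ (fp i ↔ fp p) := fun {i p} e p2 p1 => by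
    have i2 : i * i = 1 := h.inj (by
      rw [map_mul, e, map_one]
      calc _ = g * φ (p * p) * g⁻¹ := by rw [map_mul]; group
        _ = 1 := by rw [p2, map_one]; group)
    have i1 : i ≠ 1 := fun e1 => by
      rw [e1, map_one, eq_comm, conj_eq_one_iff, ← map_one φ, h.inj.eq_iff] at e
      exact p1 e
    exact ⟨i2, i1, nf (orderOf_eq_prime (by rw [pow_two, i2]) i1) (orderOf_eq_prime (by rw [pow_two, p2]) p1)
      (isConj_iff.2 ⟨g, e.symm⟩).symm⟩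
  have ten : ∀ {i p : A9}, i ∈ T64 → φ i = g * φ p * g⁻¹ → p * p = 1 → p ≠ 1 → fp p → tup i ∈ L10 := fun {i p} hi e p2 p1 fpp => by
    obtain ⟨i2, i1, e⟩ := tr e p2 p1
    obtain ⟨a, b, c, d, x, y, rfl⟩ := T64_el hi
    exact el2_ten a b c d x y (e.2 fpp) i2 i1
  have ml : ∀ {i p k q : A9}, φ i = g * φ p * g⁻¹ → φ k = g * φ q * g⁻¹ → φ (i * k) = g * φ (p * q) * g⁻¹ :=
    fun e1 e2 => by rw [map_mul, map_mul, e1, e2]; group
  have im : ∀ p ∈ T64, ∃ i ∈ T64, φ i = g * φ p * g⁻¹ := fun p hp =>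
    (mem_normalizer_iff.1 hg (φ p)).1 ⟨p, hp, rfl⟩
  obtain ⟨i, hi, ei⟩ := im pv (subset_closure (by simp))
  obtain ⟨k, hk, ek⟩ := im pv2 (subset_closure (by simp))
  obtain ⟨j, hj, ej⟩ := im pw (subset_closure (by simp))
  have mV : ∀ q ∈ [pv, pv2, pv * pv2], φ q ∈ (closure {pv, pv2}).map φ := fun q hq => by
    refine ⟨q, ?_, rfl⟩
    have a1 : pv ∈ closure ({pv, pv2} : Set A9) := subset_closure (by simp)
    have a2 : pv2 ∈ closure ({pv, pv2} : Set A9) := subset_closure (by simp)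
    simp only [List.mem_cons, List.not_mem_nil, or_false] at hq
    rcases hq with rfl | rfl | rfl
    exacts [a1, a2, mul_mem a1 a2]
  rcases ten_chk i (ten hi ei (by decide +kernel) (by decide +kernel) (by decide +kernel))
    k (ten hk ek (by decide +kernel) (by decide +kernel) (by decide +kernel))
    (ten (mul_mem hi hk) (ml ei ek) (by decide +kernel) (by decide +kernel) (by decide +kernel))
    j (ten hj ej (by decide +kernel) (by decide +kernel) (by decide +kernel))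
    (h.inj (by rw [ml ei ej, ml ej ei, show pv * pw = pw * pv by decide +kernel]))
    (h.inj (by rw [ml ek ej, ml ej ek, show pv2 * pw = pw * pv2 by decide +kernel]))
    (fun f => absurd ((tr (ml ei ej) (by decide +kernel) (by decide +kernel)).2.2.1 f) (by decide +kernel))
    (fun f => absurd ((tr (ml ek ej) (by decide +kernel) (by decide +kernel)).2.2.1 f) (by decide +kernel))
    (fun f => absurd ((tr (ml (ml ei ek) ej) (by decide +kernel) (by decide +kernel)).2.2.1 f) (by decide +kernel))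
    with ⟨h1, h2⟩ | ⟨h1, h2⟩
  · exact nV g (ei ▸ mV _ h1) (ek ▸ mV _ h2)
  · have := nV (φ pt * g) (by
      have := mV _ h1
      rwa [map_mul, map_mul, map_inv, ei, show φ pt * (g * φ pv * g⁻¹) * (φ pt)⁻¹ = φ pt * g * φ pv * (φ pt * g)⁻¹ by group] at this) (by
      have := mV _ h2
      rwa [map_mul, map_mul, map_inv, ek, show φ pt * (g * φ pv2 * g⁻¹) * (φ pt)⁻¹ = φ pt * g * φ pv2 * (φ pt * g)⁻¹ by group] at this)
    exact (mul_mem_cancel_left (show φ pt ∈ φ.range from ⟨pt, rfl⟩)).1 this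

theorem F9.syl' (h : F9 φ)
    (nf : ∀ {i j : A9}, orderOf i = 2 → orderOf j = 2 → IsConj (φ i) (φ j) → (fp i ↔ fp j))
    (nV : ∀ g, g * φ pv * g⁻¹ ∈ (closure {pv, pv2}).map φ → g * φ pv2 * g⁻¹ ∈ (closure {pv, pv2}).map φ → g ∈ φ.range) :
    ¬ 128 ∣ Nat.card G := fun hd => by
  haveI : Fact (Nat.Prime 2) := Nat.fact_prime_two
  obtain ⟨P, hP⟩ := (T64_pg.map φ).exists_le_sylow
  have cT : 64 ≤ Nat.card (T64.map φ) := by rw [Subgroup.card_map_of_injective h.inj]; exact T64_card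
  have cR : Nat.card φ.range = 181440 := by
    rw [← Nat.card_congr (MonoidHom.ofInjective h.inj).toEquiv, nat_card_alternatingGroup]
    simp [Nat.factorial]
  have cQ : Nat.card ((P : Subgroup G) ⊓ φ.range : Subgroup G) ≤ 64 := by
    obtain ⟨n, hn⟩ := IsPGroup.iff_card.1 (P.2.to_inf_left (K := φ.range))
    have h1 := Subgroup.card_dvd_of_le (inf_le_right : (P : Subgroup G) ⊓ φ.range ≤ φ.range)
    rw [hn, cR] at h1
    rw [hn]
    by_contra hlt
    have h7 : 7 ≤ n := by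
      by_contra h6
      exact hlt ((Nat.pow_le_pow_right (by norm_num) (show n ≤ 6 by omega)).trans (by norm_num))
    exact absurd ((pow_dvd_pow 2 h7).trans h1) (by norm_num)
  have eT : T64.map φ = (P : Subgroup G) ⊓ φ.range :=
    Subgroup.eq_of_le_of_card_ge (le_inf hP (map_le_range _ _)) (cQ.trans cT)
  have eP : (T64.map φ).subgroupOf (P : Subgroup G) = ⊤ := by
    by_contra hne
    haveI := P.2.isNilpotent
    obtain ⟨g, hg, hg'⟩ := SetLike.exists_of_lt (Group.normalizerCondition_of_isNilpotent _ (lt_top_iff_ne_top.2 hne))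
    refine hg' ?_
    rw [mem_subgroupOf, eT]
    refine ⟨g.2, h.nT64 nf nV ?_⟩
    rw [← subgroupOf_normalizer_eq hP, mem_subgroupOf] at hg
    exact hg
  have h128 : 2 ^ 7 ∣ Nat.card P := P.pow_dvd_card_of_pow_dvd_card (by simpa using hd)
  have h64 : Nat.card (P : Subgroup G) ≤ 64 := by
    refine le_trans (Subgroup.card_le_of_le ?_) cQ
    rw [← eT]; exact subgroupOf_eq_top.1 eP
  have := Nat.le_of_dvd Nat.card_pos h128
  omega

end Cfsg.Agent.A9S
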