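import Cfsg.Agent.A9S.PN
import Cfsg.Agent.A9S.PE2a

/-! In the `Alt(9)` frame the Sylow 2-subgroups of `G` have order at most 64. -/

set_option autoImplicit false

namespace Cfsg.Agent.A9S

open Equiv Subgroup

variable {G : Type*} [Group G] [Finite G] {φ : A9 →* G}

theorem F9.syl (h : F9 φ)
    (nV : ∀ g, g * φ pv * g⁻¹ ∈ (closure {pv, pv2}).map φ → g * φ pv2 * g⁻¹ ∈ (closure {pv, pv2}).map φ → g ∈ φ.range) :
    ¬ 128 ∣ Nat.card G :=
  h.syl' (fun hi hj c => h.nf hi hj c) nV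

end Cfsg.Agent.A9S
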