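import Cfsg.Agent.A9S.PN
import Cfsg.Agent.A8R.PE4

/-! The centraliser of a non-2-central involution in the `Alt(9)` frame (helper21). -/

set_option autoImplicit false
set_option linter.unusedSectionVars false

namespace Cfsg.Agent.A9S

open Equiv Subgroup

variable {G : Type*} [Group G] [Finite G]

/-- Enumeration of the injective maps commuting with `pv`. -/
theorem pe4_enum (Q : (Fin 9 → Fin 9) → Prop)
    (h : ∀ a3 : Fin 9, pv.1 a3 ≠ a3 → ∀ a5 : Fin 9, pv.1 a5 ≠ a5 → a5 ≠ a3 → a5 ≠ pv.1 a3 →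
      ∀ a0 : Fin 9, pv.1 a0 = a0 → ∀ a1 : Fin 9, pv.1 a1 = a1 → a1 ≠ a0 → ∀ a2 : Fin 9, pv.1 a2 = a2 → a2 ≠ a0 → a2 ≠ a1 →
      ∀ a7 : Fin 9, pv.1 a7 = a7 → a7 ≠ a0 → a7 ≠ a1 → a7 ≠ a2 →
      ∀ a8 : Fin 9, pv.1 a8 = a8 → a8 ≠ a0 → a8 ≠ a1 → a8 ≠ a2 → a8 ≠ a7 →
      Q ![a0, a1, a2, a3, pv.1 a3, a5, pv.1 a5, a7, a8])
    (i : A9) (c : i * pv = pv * i) : Q i.1 := by
  have c' : ∀ x, i.1 (pv.1 x) = pv.1 (i.1 x) := fun x => by
    have := congrArg (fun s : A9 => s.1 x) c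
    simpa using this
  have inj := i.1.injective
  have p0 : pv.1 0 = 0 := by decide +kernel
  have p1 : pv.1 1 = 1 := by decide +kernel
  have p2 : pv.1 2 = 2 := by decide +kernel
  have p3 : pv.1 3 = 4 := by decide +kernel
  have p5 : pv.1 5 = 6 := by decide +kernel
  have p7 : pv.1 7 = 7 := by decide +kernel
  have p8 : pv.1 8 = 8 := by decide +kernel
  have q3 : pv.1 (i.1 3) = i.1 4 := by rw [← c', p3]
  have q5 : pv.1 (i.1 5) = i.1 6 := by rw [← c', p5]
  have := h (i.1 3) (by rw [q3]; exact inj.ne (by decide)) (i.1 5) (by rw [q5]; exact inj.ne (by decide))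
    (inj.ne (by decide)) (by rw [q3]; exact inj.ne (by decide)) (i.1 0) (by rw [← c', p0]) (i.1 1) (by rw [← c', p1])
    (inj.ne (by decide)) (i.1 2) (by rw [← c', p2]) (inj.ne (by decide)) (inj.ne (by decide)) (i.1 7) (by rw [← c', p7])
    (inj.ne (by decide)) (inj.ne (by decide)) (inj.ne (by decide)) (i.1 8) (by rw [← c', p8])
    (inj.ne (by decide)) (inj.ne (by decide)) (inj.ne (by decide)) (inj.ne (by decide))
  rw [q3, q5] at this
  have e : (i.1 : Fin 9 → Fin 9) = ![i.1 0, i.1 1, i.1 2, i.1 3, i.1 4, i.1 5, i.1 6, i.1 7, i.1 8] := by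
    funext x; fin_cases x <;> rfl
  rw [e]; exact this

theorem pe4_ext {i j : A9} (h : ∀ x, i.1 x = j.1 x) : i = j := Subtype.ext (Equiv.ext h)

theorem pe4_app {i j : A9} (h : i = j) (x : Fin 9) : i.1 x = j.1 x := by rw [h]

/-- Two fixed points. -/
def pe4F (f : Fin 9 → Fin 9) : Prop := ∃ x y : Fin 9, x ≠ y ∧ f x = x ∧ f y = y

instance pe4F_dec (f : Fin 9 → Fin 9) : Decidable (pe4F f) := by unfold pe4F; infer_instance

/-- Auxiliary predicate. -/
def pe4A (u : A9) (f : Fin 9 → Fin 9) : Prop := (∀ x, f (u.1 x) = u.1 (f x)) → ∀ x, f (f (f (f x))) = x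

instance pe4A_dec (u : A9) (f : Fin 9 → Fin 9) : Decidable (pe4A u f) := by unfold pe4A; infer_instance

set_option synthInstance.maxSize 10000000 in
set_option synthInstance.maxHeartbeats 400000 in
theorem pe4_A {u : A9} (hu : u = pe ∨ u = pv2 * pw2 ∨ u = pe * (pv2 * pw2)) (i : A9) (c : i * pv = pv * i)
    (d : i * u = u * i) : i ^ 4 = 1 := by
  have := pe4_enum (pe4A u) (by rcases hu with rfl | rfl | rfl <;> decide +kernel) i c
    (fun x => by simpa using pe4_app d x)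
  refine pe4_ext fun x => ?_
  simpa [pow_succ] using this x

/-- A double transposition. -/
def pe4p (a b c d : Fin 9) (h1 : a ≠ b := by decide) (h2 : c ≠ d := by decide) : A9 :=
  ⟨swap a b * swap c d, Perm.mem_alternatingGroup.2 (by rw [map_mul, Perm.sign_swap h1, Perm.sign_swap h2]; decide)⟩

/-- The involutions of `Alt {0, 1, 2, 7, 8}`. -/
def pe4L : List A9 := [pe4p 1 2 7 8, pe4p 1 7 2 8, pe4p 1 8 2 7, pe4p 0 2 7 8, pe4p 0 7 2 8, pe4p 0 8 2 7, pe4p 0 1 7 8, pe4p 0 7 1 8, pe4p 0 8 1 7, pe4p 0 1 2 8, pe4p 0 2 1 8, pe4p 0 8 1 2, pe4p 0 1 2 7, pe4p 0 2 1 7, pe4p 0 7 1 2]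

theorem pe4_L (k : A9) (hk : k ∈ pe4L) : k * k = 1 ∧ k * pv = pv * k ∧ fp k ∧ ¬ fp (k * pv) := by
  simp only [pe4L, List.mem_cons, List.not_mem_nil, or_false] at hk
  rcases hk with rfl | rfl | rfl | rfl | rfl | rfl | rfl | rfl | rfl | rfl | rfl | rfl | rfl | rfl | rfl <;> decide +kernel

/-- Auxiliary predicate. -/
def pe4K (k : A9) (f : Fin 9 → Fin 9) : Prop := (∀ x, k.1 (f x) = f (k.1 x)) ∧ pe4F fun x => k.1 (f x)

instance pe4K_dec (k : A9) (f : Fin 9 → Fin 9) : Decidable (pe4K k f) := by unfold pe4K; infer_instance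

/-- Auxiliary predicate. -/
def pe4Q (f : Fin 9 → Fin 9) : Prop := (∀ x, f (f x) = x) → pe4F f → pe4F (fun x => f (pv.1 x)) → (∀ x, f x = x) ∨
    (∀ x, f x = pv.1 x) ∨ (∀ x, f x = pv2.1 x) ∨ (∀ x, f x = (pv2 * pv).1 x) ∨ ∃ k ∈ pe4L, pe4K k f

instance pe4Q_dec (f : Fin 9 → Fin 9) : Decidable (pe4Q f) := by unfold pe4Q; infer_instance

set_option synthInstance.maxSize 10000000 in
set_option synthInstance.maxHeartbeats 400000 in
theorem pe4_B (i : A9) (c : i * pv = pv * i) (ii : i * i = 1) (f1 : fp i) (f2 : fp (i * pv)) (n1 : i ≠ 1) (n2 : i ≠ pv) :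
    i = pv2 ∨ i = pv2 * pv ∨ ∃ k : A9, k ∈ pe4L ∧ k * i = i * k ∧ fp (k * i) := by
  have := pe4_enum pe4Q (by decide +kernel) i c (fun x => by simpa using pe4_app ii x) f1 f2
  rcases this with h | h | h | h | ⟨k, hk, h, h'⟩
  · exact absurd (pe4_ext h) n1
  · exact absurd (pe4_ext h) n2
  · exact .inl (pe4_ext h)
  · exact .inr (.inl (pe4_ext h))
  · exact .inr (.inr ⟨k, hk, pe4_ext h, h'⟩)

/-- Auxiliary predicate. -/
def pe4C (f : Fin 9 → Fin 9) : Prop := (∀ x, f (pv2.1 x) = pv2.1 (f x)) → (∀ x, f (f x) = x) → pe4F f →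
    pe4F (fun x => f (pv2.1 x)) → pe4F fun x => f (pv.1 x)

instance pe4C_dec (f : Fin 9 → Fin 9) : Decidable (pe4C f) := by unfold pe4C; infer_instance

set_option synthInstance.maxSize 10000000 in
set_option synthInstance.maxHeartbeats 400000 in
theorem pe4_C (i : A9) (c : i * pv = pv * i) (d : i * pv2 = pv2 * i) (ii : i * i = 1) (f1 : fp i) (f2 : ¬ fp (i * pv))
    (f3 : fp (i * pv2)) : False :=
  f2 (pe4_enum pe4C (by decide +kernel) i c (fun x => by simpa using pe4_app d x)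
    (fun x => by simpa using pe4_app ii x) f1 f3)

theorem F9.cv_of {φ : A9 →* G} (h : F9 φ)
    (nf : ∀ {i j : A9}, orderOf i = 2 → orderOf j = 2 → IsConj (φ i) (φ j) → (fp i ↔ fp j))
    (cV : ∀ g, g * φ pv = φ pv * g → g * φ pv2 = φ pv2 * g → g ∈ φ.range)
    (nV : ∀ g, g * φ pv * g⁻¹ ∈ (closure {pv, pv2}).map φ → g * φ pv2 * g⁻¹ ∈ (closure {pv, pv2}).map φ → g ∈ φ.range)
    (cT : ∀ g, g * φ pe = φ pe * g → g ∈ φ.range) : ∀ g, g * φ pv = φ pv * g → g ∈ φ.range := by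
  have nf' : ∀ {i j : A9} (g : G), i * i = 1 → g * φ i * g⁻¹ = φ j → (fp i ↔ fp j) := fun {i j} g ii e => by
    by_cases i1 : i = 1
    · have : j = 1 := h.inj (by rw [← e, i1]; simp)
      rw [i1, this]
    · have oi : orderOf i = 2 := orderOf_eq_prime (by rw [sq, ii]) i1
      have c : IsConj (φ i) (φ j) := isConj_iff.2 ⟨g, e⟩
      refine nf oi ?_ c
      rw [← orderOf_injective φ h.inj, ← e, ← MulAut.conj_apply, MulEquiv.orderOf_eq, orderOf_injective φ h.inj, oi]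
  have m1 : pv ∈ closure ({pv, pv2} : Set A9) := subset_closure (by simp)
  have m2 : pv2 ∈ closure ({pv, pv2} : Set A9) := subset_closure (by simp)
  have nV' : ∀ g, Commute g (φ pv) → g * φ pv2 * g⁻¹ = φ pv2 ∨ g * φ pv2 * g⁻¹ = φ pv2 * φ pv → g ∈ φ.range :=
    fun g c e => by
      refine nV g ⟨pv, m1, by rw [c.eq, mul_inv_cancel_right]⟩ ?_
      rcases e with e | e <;> rw [e]
      · exact ⟨pv2, m2, rfl⟩
      · exact ⟨pv2 * pv, mul_mem m2 m1, map_mul _ _ _⟩
  have vv : pv * pv = 1 := by decide +kernel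
  have v2 : pv2 * pv2 = 1 := by decide +kernel
  have tt : φ pv * φ pv = 1 := by rw [← map_mul, vv, map_one]
  have zz : φ pv2 * φ pv2 = 1 := by rw [← map_mul, v2, map_one]
  have cm : ∀ {a b : A9}, a * b = b * a → Commute (φ a) (φ b) := fun e => by
    unfold Commute SemiconjBy; rw [← map_mul, e, map_mul]
  have zt : Commute (φ pv2) (φ pv) := cm (by decide +kernel)
  intro g hg
  refine nV' g hg (A8R.pe4_zm (x := φ pe) (y := φ (pv2 * pw2)) tt zz
    (fun e => absurd (h.inj (e.trans (map_one φ).symm)) (by decide +kernel)) (fun e => absurd (h.inj e) (by decide +kernel))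
    (by rw [← map_mul, show pe * pe = 1 by decide +kernel, map_one])
    (by rw [← map_mul, show pv2 * pw2 * (pv2 * pw2) = 1 by decide +kernel, map_one]) zt (cm (by decide +kernel))
    (cm (by decide +kernel)) ?_ ?_ hg)
  · intro g c e
    have cw : Commute (g * φ pv2 * g⁻¹) (φ pv) := (c.mul_left zt).mul_left c.inv_left
    obtain ⟨i, hi⟩ : g * φ pv2 * g⁻¹ ∈ φ.range := by
      refine nV' _ cw ?_
      have ww : (g * φ pv2 * g⁻¹) * (g * φ pv2 * g⁻¹) = 1 := by
        calc _ = g * (φ pv2 * φ pv2) * g⁻¹ := by group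
          _ = 1 := by rw [zz]; group
      generalize g * φ pv2 * g⁻¹ = w at e cw ww
      rw [← eq_inv_of_mul_eq_one_left ww]
      rcases e with e | e
      · left; rw [← e, mul_assoc, ww, mul_one]
      · right
        have : w * φ pv2 = φ pv2 * w * φ pv := by rw [e, mul_assoc _ (φ pv), tt, mul_one]
        rw [this, mul_assoc, mul_assoc, ← cw.eq, ← mul_assoc w, ww, one_mul]
    have e2 : g * φ (pv2 * pv) * g⁻¹ = φ (i * pv) := by
      rw [map_mul, map_mul, hi, mul_assoc (g * φ pv2) g⁻¹, c.inv_left.eq]; group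
    have f1 : fp i := (nf' g v2 hi.symm).1 (by decide +kernel)
    have f2 : fp (i * pv) := (nf' g (by decide +kernel) e2).1 (by decide +kernel)
    have ii : i * i = 1 := h.inj (by
      rw [map_mul, hi, map_one]
      calc _ = g * (φ pv2 * φ pv2) * g⁻¹ := by group
        _ = 1 := by rw [zz]; group)
    have ci : i * pv = pv * i := h.inj (by rw [map_mul, map_mul, hi, cw.eq])
    have n1 : i ≠ 1 := fun e => by
      rw [e, map_one] at hi
      have : φ pv2 = φ 1 := by rw [map_one]; calc _ = g⁻¹ * (g * φ pv2 * g⁻¹) * g := by group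
        _ = 1 := by rw [← hi]; group
      exact absurd (h.inj this) (by decide +kernel)
    have n2 : i ≠ pv := fun e => by
      rw [e] at hi
      have : φ pv2 = φ pv := by
        calc _ = g⁻¹ * (g * φ pv2 * g⁻¹) * g := by group
          _ = _ := by rw [← hi, c.inv_left.eq]; group
      exact absurd (h.inj this) (by decide +kernel)
    rcases pe4_B i ci ii f1 f2 n1 n2 with e | e | ⟨k, hk, ki, fk⟩
    · exact .inl (by rw [← hi, e])
    · exact .inr (by rw [← hi, e, map_mul])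
    exfalso
    have K : k * k = 1 ∧ k * pv = pv * k ∧ fp k ∧ ¬ fp (k * pv) := pe4_L k hk
    obtain ⟨kk, kv, fk1, fk2⟩ := K
    have c1 : Commute (g⁻¹ * φ k * g) (φ pv) := (c.inv_left.mul_left (cm kv)).mul_left c
    have c2 : g⁻¹ * φ k * g * φ pv2 = φ pv2 * (g⁻¹ * φ k * g) := by
      have := (cm ki).eq
      rw [hi] at this
      calc _ = g⁻¹ * (φ k * (g * φ pv2 * g⁻¹)) * g := by group
        _ = _ := by rw [this]; group
    obtain ⟨k0, hk0⟩ := cV _ c1.eq c2
    have kiki : k * i * (k * i) = 1 := by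
      calc _ = k * (i * k) * i := by group
        _ = k * k * (i * i) := by rw [← ki]; group
        _ = 1 := by rw [kk, ii, one_mul]
    have kvkv : k * pv * (k * pv) = 1 := by
      calc _ = k * (pv * k) * pv := by group
        _ = k * k * (pv * pv) := by rw [← kv]; group
        _ = 1 := by rw [kk, vv, one_mul]
    refine pe4_C k0 (h.inj (by rw [map_mul, map_mul, hk0, c1.eq])) (h.inj (by rw [map_mul, map_mul, hk0, c2]))
      (h.inj ?_) ((nf' g⁻¹ kk (by rw [hk0, inv_inv])).1 fk1) (fun f => fk2 ((nf' g⁻¹ kvkv ?_).2 f))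
      ((nf' g⁻¹ kiki ?_).1 fk)
    · rw [map_mul, hk0, map_one]
      calc _ = g⁻¹ * (φ k * φ k) * g := by group
        _ = 1 := by rw [← map_mul, kk, map_one]; group
    · rw [map_mul, map_mul, hk0, inv_inv, mul_assoc _ g, c.eq]; group
    · rw [map_mul, map_mul, hk0, hi]; group
  · intro u hu k c e
    obtain ⟨u0, hu0, rfl⟩ : ∃ u0 : A9, (u0 = pe ∨ u0 = pv2 * pw2 ∨ u0 = pe * (pv2 * pw2)) ∧ u = φ u0 := by
      rcases hu with rfl | rfl | rfl
      exacts [⟨_, .inl rfl, rfl⟩, ⟨_, .inr (.inl rfl), rfl⟩, ⟨_, .inr (.inr rfl), (map_mul _ _ _).symm⟩]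
    obtain ⟨d, hd⟩ : ∃ d : A9, d * pe * d⁻¹ = u0 := by
      rcases hu0 with rfl | rfl | rfl
      · exact ⟨1, by simp⟩
      · exact ⟨py * pz, by decide +kernel⟩
      · exact ⟨py * pz * (py * pz), by decide +kernel⟩
    have c2 : k * k * φ u0 = φ u0 * (k * k) := by
      rw [← mul_inv_eq_iff_eq_mul]
      rcases e with e | e
      · calc _ = k * (k * φ u0 * k⁻¹) * k⁻¹ := by group
          _ = _ := by rw [e, e]
      · calc _ = k * (k * φ u0 * k⁻¹) * k⁻¹ := by group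
          _ = k * (φ u0 * φ pv) * k⁻¹ := by rw [e]
          _ = (k * φ u0 * k⁻¹) * (k * φ pv * k⁻¹) := by group
          _ = _ := by rw [e, c.eq, mul_inv_cancel_right, mul_assoc, tt, mul_one]
    obtain ⟨j, hj⟩ := cT ((φ d)⁻¹ * (k * k) * φ d) (by
      rw [← hd, map_mul, map_mul, map_inv] at c2
      calc _ = (φ d)⁻¹ * (k * k * (φ d * φ pe * (φ d)⁻¹)) * φ d := by group
        _ = _ := by rw [c2]; group)
    have hj' : φ (d * j * d⁻¹) = k * k := by rw [map_mul, map_mul, map_inv, hj]; group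
    have := pe4_A hu0 (d * j * d⁻¹) (h.inj (by rw [map_mul _ _ pv, map_mul _ pv, hj', (c.mul_left c).eq]))
      (h.inj (by rw [map_mul _ _ u0, map_mul _ u0, hj', c2]))
    have e4 : (k * k) ^ 4 = 1 := by rw [← hj', ← map_pow, this, map_one]
    rw [← sq, ← pow_mul] at e4
    exact e4

theorem F9.cv' {φ : A9 →* G} (h : F9 φ)
    (cV : ∀ g, g * φ pv = φ pv * g → g * φ pv2 = φ pv2 * g → g ∈ φ.range)
    (nV : ∀ g, g * φ pv * g⁻¹ ∈ (closure {pv, pv2}).map φ → g * φ pv2 * g⁻¹ ∈ (closure {pv, pv2}).map φ → g ∈ φ.range)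
    (cT : ∀ g, g * φ pe = φ pe * g → g ∈ φ.range) : ∀ g, g * φ pv = φ pv * g → g ∈ φ.range :=
  h.cv_of (fun hi hj c => h.nf hi hj c) cV nV cT

end Cfsg.Agent.A9S
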