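import Cfsg.Agent.A9S.A
import Cfsg.Agent.A8R.PE5

/-! PE5 for `Alt(9)`: surjectivity of the frame map (helper11). -/

set_option autoImplicit false

namespace Cfsg.Agent.A9S

open Equiv Subgroup

variable {G : Type*} [Group G]

theorem pe5_conj {σ τ : Perm (Fin 9)} {p : ℕ} (hp : p.Prime) (h1 : orderOf σ = p) (h2 : orderOf τ = p)
    (h : σ.support.card = τ.support.card) : IsConj σ τ := by
  obtain ⟨n, hn⟩ := Perm.cycleType_prime_order (h1 ▸ hp)
  obtain ⟨m, hm⟩ := Perm.cycleType_prime_order (h2 ▸ hp)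
  rw [← Perm.sum_cycleType, ← Perm.sum_cycleType, hn, hm, Multiset.sum_replicate, Multiset.sum_replicate, h1, h2,
    smul_eq_mul, smul_eq_mul] at h
  rw [Perm.isConj_iff_cycleType_eq, hn, hm, h1, h2, Nat.eq_of_mul_eq_mul_right hp.pos h]

theorem pe5_ord {x : A9} {p : ℕ} (hp : p.Prime) (h1 : x ^ p = 1) (h2 : x ≠ 1) : orderOf x.1 = p := by
  have := Fact.mk hp
  rw [Subgroup.orderOf_coe, orderOf_eq_prime h1 h2]

theorem pe5_cls (i : A9) (hi : orderOf i = 2) :
    (i.1.support.card = 4 ∧ IsConj i pv) ∨ (i.1.support.card = 8 ∧ IsConj i pt) := by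
  have h1 : orderOf i.1 = 2 := by rw [Subgroup.orderOf_coe, hi]
  obtain ⟨n, hn⟩ := Perm.cycleType_prime_order (h1 ▸ Nat.prime_two)
  have h2 := Perm.sum_cycleType i.1
  have h3 := Perm.sign_of_cycleType i.1
  have h4 : i.1.support.card ≤ 9 := (Finset.card_le_univ _).trans (by simp)
  rw [hn, Multiset.sum_replicate, h1, smul_eq_mul] at h2 h3
  rw [Perm.mem_alternatingGroup.1 i.2, Multiset.card_replicate] at h3
  have h5 : n = 1 ∨ n = 3 := by
    have : n ≤ 3 := by omega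
    interval_cases n <;> first | decide | exact absurd h3 (by decide)
  rcases h5 with rfl | rfl
  · exact Or.inl ⟨h2.symm, alternatingGroup.isConj_of (pe5_conj Nat.prime_two h1
      (pe5_ord Nat.prime_two (by decide +kernel) (by decide +kernel)) (h2.symm.trans (by decide +kernel)))
        (by rw [← h2]; simp)⟩
  · refine Or.inr ⟨h2.symm, ?_⟩
    obtain ⟨π, e⟩ := isConj_iff.1 (pe5_conj Nat.prime_two h1 (pe5_ord (x := pt) Nat.prime_two (by decide +kernel)
      (by decide +kernel)) (h2.symm.trans (by decide +kernel)))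
    rcases Int.units_eq_one_or (Perm.sign π) with h | h
    · exact isConj_iff.2 ⟨⟨π, Perm.mem_alternatingGroup.2 h⟩, Subtype.ext e⟩
    · refine isConj_iff.2 ⟨⟨swap 6 7 * π, Perm.mem_alternatingGroup.2 ?_⟩, Subtype.ext ?_⟩
      · rw [map_mul, h, Perm.sign_swap (by decide)]
        decide
      · show swap 6 7 * π * i.1 * (swap 6 7 * π)⁻¹ = pt.1
        calc swap 6 7 * π * i.1 * (swap 6 7 * π)⁻¹ = swap 6 7 * (π * i.1 * π⁻¹) * (swap 6 7)⁻¹ := by group
          _ = _ := by rw [e]; decide +kernel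

theorem pe5_ord_pt : orderOf pt = 2 :=
  orderOf_eq_prime (by decide +kernel) (by decide +kernel)

theorem pe5_ord_pv : orderOf pv = 2 :=
  orderOf_eq_prime (by decide +kernel) (by decide +kernel)

theorem pe5_ord_pe : orderOf pe = 2 :=
  orderOf_eq_prime (by decide +kernel) (by decide +kernel)

theorem pe5_nfp_pe : ¬ pe.1.support.card = 4 := by decide +kernel

theorem pe5_cent {φ : A9 →* G} {i j : A9} (hc : IsConj i j)
    (hj : ∀ g, g * φ j = φ j * g → g ∈ φ.range) :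
    ∀ g, g * φ i = φ i * g → g ∈ φ.range := by
  intro g hg
  obtain ⟨c, hc⟩ := isConj_iff.1 hc
  have h1 : φ c * g * (φ c)⁻¹ ∈ φ.range := by
    apply hj
    rw [← hc, map_mul, map_mul, map_inv]
    calc φ c * g * (φ c)⁻¹ * (φ c * φ i * (φ c)⁻¹) = φ c * (g * φ i) * (φ c)⁻¹ := by group
      _ = φ c * (φ i * g) * (φ c)⁻¹ := by rw [hg]
      _ = φ c * φ i * (φ c)⁻¹ * (φ c * g * (φ c)⁻¹) := by group
  have h2 : φ c ∈ φ.range := ⟨c, rfl⟩
  have h3 := φ.range.mul_mem (φ.range.mul_mem (φ.range.inv_mem h2) h1) h2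
  have h4 : (φ c)⁻¹ * (φ c * g * (φ c)⁻¹) * φ c = g := by group
  rwa [h4] at h3

/-- PE5 with the class list of the involutions of `A9` as a hypothesis. -/
theorem F9.surj_of_cls [Finite G] {φ : A9 →* G} (h : F9 φ)
    (cls : ∀ i : A9, orderOf i = 2 → (i.1.support.card = 4 ∧ IsConj i pv) ∨ (i.1.support.card = 8 ∧ IsConj i pt))
    (cT : ∀ g, g * φ pe = φ pe * g → g ∈ φ.range)
    (cv' : ∀ g, g * φ pv = φ pv * g → g ∈ φ.range) : Function.Surjective φ := by
  have pet : IsConj pe pt := by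
    rcases cls pe pe5_ord_pe with ⟨h1, _⟩ | ⟨_, h2⟩
    · exact absurd h1 pe5_nfp_pe
    · exact h2
  have cent : ∀ i : A9, orderOf i = 2 → ∀ g, g * φ i = φ i * g → g ∈ φ.range := by
    intro i hi
    rcases cls i hi with ⟨_, h1⟩ | ⟨_, h2⟩
    · exact pe5_cent h1 cv'
    · exact pe5_cent (h2.trans pet.symm) cT
  have fus : ∀ i j : A9, orderOf i = 2 → orderOf j = 2 → IsConj (φ i) (φ j) → IsConj i j := by
    intro i j hi hj c
    rcases cls i hi with ⟨_, h1⟩ | ⟨_, h1⟩ <;> rcases cls j hj with ⟨_, h2⟩ | ⟨_, h2⟩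
    · exact h1.trans h2.symm
    · exact absurd (((φ.map_isConj h2).symm.trans c.symm).trans (φ.map_isConj h1)) h.nc
    · exact absurd (((φ.map_isConj h1).symm.trans c).trans (φ.map_isConj h2)) h.nc
    · exact h1.trans h2.symm
  intro g
  have hu : φ pt * φ pt = 1 := by
    rw [← map_mul, show pt * pt = 1 by decide +kernel, map_one]
  have hv : φ pv * φ pv = 1 := by
    rw [← map_mul, show pv * pv = 1 by decide +kernel, map_one]
  have hs : (g * φ pv * g⁻¹) * (g * φ pv * g⁻¹) = 1 := by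
    calc (g * φ pv * g⁻¹) * (g * φ pv * g⁻¹) = g * (φ pv * φ pv) * g⁻¹ := by group
      _ = 1 := by rw [hv]; group
  have hn : ¬ IsConj (φ pt) (g * φ pv * g⁻¹) := fun c =>
    h.nc (c.trans (isConj_iff.2 ⟨g, rfl⟩ : IsConj (φ pv) (g * φ pv * g⁻¹)).symm)
  obtain ⟨c, hc, hcu, hcs⟩ := A8R.pe5_dih hu hs hn
  obtain ⟨i, hi⟩ := cent pt pe5_ord_pt c hcu
  have hd : (g⁻¹ * c * g) * φ pv = φ pv * (g⁻¹ * c * g) := by
    calc (g⁻¹ * c * g) * φ pv = g⁻¹ * (c * (g * φ pv * g⁻¹)) * g := by group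
      _ = g⁻¹ * ((g * φ pv * g⁻¹) * c) * g := by rw [hcs]
      _ = φ pv * (g⁻¹ * c * g) := by group
  obtain ⟨j, hj⟩ := cv' _ hd
  have cij : IsConj (φ j) (φ i) := by
    refine isConj_iff.2 ⟨g, ?_⟩
    rw [hi, hj]; group
  have oi : orderOf i = 2 := by rw [← orderOf_injective φ h.inj, hi, hc]
  have oj : orderOf j = 2 := by
    rw [← orderOf_injective φ h.inj, hj]
    have : g⁻¹ * c * g = g⁻¹ * c * g⁻¹⁻¹ := by rw [inv_inv]
    rw [this, ← hc]
    exact (orderOf_injective (MulAut.conj g⁻¹).toMonoidHom (MulAut.conj g⁻¹).injective c)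
  obtain ⟨k, hk⟩ := isConj_iff.1 (fus j i oj oi cij)
  have hm : g * (φ k)⁻¹ ∈ φ.range := by
    apply cent i oi
    have e1 : φ i = φ k * φ j * (φ k)⁻¹ := by rw [← hk, map_mul, map_mul, map_inv]
    have e2 : φ i = g * φ j * g⁻¹ := by rw [hi, hj]; group
    calc g * (φ k)⁻¹ * φ i = g * (φ k)⁻¹ * (φ k * φ j * (φ k)⁻¹) := by rw [← e1]
      _ = (g * φ j * g⁻¹) * (g * (φ k)⁻¹) := by group
      _ = φ i * (g * (φ k)⁻¹) := by rw [← e2]
  have hk' : φ k ∈ φ.range := ⟨k, rfl⟩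
  have := φ.range.mul_mem hm hk'
  rw [inv_mul_cancel_right] at this
  exact this

/-- PE5. -/
theorem F9.surj [Finite G] {φ : A9 →* G} (h : F9 φ)
    (cT : ∀ g, g * φ pe = φ pe * g → g ∈ φ.range)
    (cv' : ∀ g, g * φ pv = φ pv * g → g ∈ φ.range) : Function.Surjective φ :=
  h.surj_of_cls pe5_cls cT cv'

end Cfsg.Agent.A9S
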