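import Cfsg.Agent.A9S.PE5

/-! Involution classes of `Alt(9)` (`cls`) and non-fusion (`F9.nf`). -/

set_option autoImplicit false
set_option linter.unusedSectionVars false

namespace Cfsg.Agent.A9S

open Equiv Subgroup

variable {G : Type*} [Group G] [Finite G]

theorem pn_fp (i : A9) : fp i ↔ i.1.support.card ≤ 7 := by
  have : fp i ↔ 1 < i.1.supportᶜ.card := by
    rw [Finset.one_lt_card]
    simp only [Finset.mem_compl, Perm.mem_support, not_not]
    exact ⟨fun ⟨x, y, h, a, b⟩ => ⟨x, a, y, b, h⟩, fun ⟨x, a, y, b, h⟩ => ⟨x, y, h, a, b⟩⟩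
  rw [this, Finset.card_compl, Fintype.card_fin]
  omega

theorem cls (i : A9) (hi : orderOf i = 2) : (fp i ∧ IsConj i pv) ∨ (¬ fp i ∧ IsConj i pt) :=
  (pe5_cls i hi).imp (fun h => ⟨(pn_fp i).2 (by omega), h.2⟩) fun h => ⟨fun e => by
    have := (pn_fp i).1 e
    omega, h.2⟩

theorem F9.nf {φ : A9 →* G} (h : F9 φ) {i j : A9} (hi : orderOf i = 2) (hj : orderOf j = 2)
    (c : IsConj (φ i) (φ j)) : fp i ↔ fp j := by
  rcases cls i hi with ⟨a, b⟩ | ⟨a, b⟩ <;> rcases cls j hj with ⟨a', b'⟩ | ⟨a', b'⟩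
  · exact iff_of_true a a'
  · exact absurd (((φ.map_isConj b').symm.trans c.symm).trans (φ.map_isConj b)) h.nc
  · exact absurd (((φ.map_isConj b).symm.trans c).trans (φ.map_isConj b')) h.nc
  · exact iff_of_false a a'

end Cfsg.Agent.A9S
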